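import Mathlib
import Cfsg.Agent.Lib.TIW.Clq1
import Cfsg.Agent.Lib.LAE.CharP
import Cfsg.Agent.Lib.Classif.TI

/-! Abelian large 2-subgroups are weakly closed TI-subgroups, and elementary abelian in the adjacent case. -/

set_option autoImplicit false
set_option linter.unusedSectionVars false

namespace CfsgLib.LAb

open Subgroup Cfsg CfsgLib.LAE CfsgLib.BHS CfsgLib.TIW
open scoped commutatorElement

variable {G : Type*} [Group G]

/-- `Q` is an abelian large 2-subgroup with `Q = O₂(N(Q))` -/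
structure LA (Q : Subgroup G) : Prop where
  two : IsPGroup 2 Q
  comm : ∀ x ∈ Q, ∀ y ∈ Q, x * y = y * x
  cen : centralizer (Q : Set G) ≤ Q
  lg : ∀ U ≤ Q, U ≠ ⊥ → normalizer (U : Set G) ≤ normalizer (Q : Set G)
  o2 : ∀ P : Subgroup G, IsPGroup 2 P → P ≤ normalizer (Q : Set G) →
    normalizer (Q : Set G) ≤ normalizer (P : Set G) → P ≤ Q

/-- the conjugacy class of `Q` -/
abbrev cl (Q : Subgroup G) : Set (Subgroup G) := Set.range fun g : G => conjS g Q

variable {Q A B C D : Subgroup G}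

theorem cl_trans (hA : A ∈ cl Q) (hB : B ∈ cl Q) : ∃ g, conjS g A = B := by
  obtain ⟨a, rfl⟩ := hA
  obtain ⟨b, rfl⟩ := hB
  exact ⟨b * a⁻¹, by simp only [conjS_mul, conjS_inv_conjS]⟩

theorem cl_conj (hA : A ∈ cl Q) (g : G) : conjS g A ∈ cl Q := by
  obtain ⟨a, rfl⟩ := hA
  exact ⟨g * a, conjS_mul _ _ _⟩

theorem sq_comm {x j : G} (h : x * (j * x⁻¹ * j⁻¹) = j * x⁻¹ * j⁻¹ * x) :
    ⁅x * x, j⁆ = ⁅x, j⁆ * ⁅x, j⁆ := by
  simp only [commutatorElement_def]
  calc x * x * j * (x * x)⁻¹ * j⁻¹ = x * (x * (j * x⁻¹ * j⁻¹)) * (j * x⁻¹ * j⁻¹) := by group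
    _ = _ := by rw [h]; group

namespace LA

variable (h : LA Q)
include h

theorem conj (g : G) : LA (conjS g Q) where
  two := isPGroup_conjS h.two g
  comm x hx y hy := by
    obtain ⟨x, hx', rfl⟩ := exists_of_mem_conjS hx
    obtain ⟨y, hy', rfl⟩ := exists_of_mem_conjS hy
    calc g * x * g⁻¹ * (g * y * g⁻¹) = g * (x * y) * g⁻¹ := by group
      _ = _ := by rw [h.comm x hx' y hy']; group
  cen := by rw [← conjS_centralizer]; exact conjS_mono h.cen
  lg U h1 h2 := by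
    have := h.lg _ (le_conjS_iff.1 h1) (by rwa [Ne, conjS_eq_bot_iff])
    rwa [← conjS_normalizer, ← le_conjS_iff, conjS_normalizer] at this
  o2 P h1 h2 h3 := by
    rw [← conjS_normalizer] at h2 h3
    refine le_conjS_iff.2 (h.o2 _ (isPGroup_conjS h1 _) (le_conjS_iff.1 h2) ?_)
    rw [← conjS_normalizer]
    exact conjS_le_iff.1 h3

theorem of_mem (hA : A ∈ cl Q) : LA A := by
  obtain ⟨a, rfl⟩ := hA
  exact h.conj a

theorem mem_norm {x g : G} (hx : x ∈ Q) (x1 : x ≠ 1) (e : g * x = x * g) :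
    g ∈ normalizer (Q : Set G) :=
  h.lg (zpowers x) (zpowers_le.2 hx) (by simpa using x1) (centralizer_le_normalizer _
    (mem_centralizer_iff.2 fun y hy => by
      obtain ⟨k, rfl⟩ := mem_zpowers_iff.1 hy
      exact ((show Commute g x from e).zpow_right k).symm))

variable [Finite G]

theorem norm_le {P : Subgroup G} (hP : IsPGroup 2 P) (hQ : Q ≤ P) :
    normalizer (P : Set G) ≤ normalizer (Q : Set G) := by
  by_cases e : P = ⊥
  · rw [e, le_bot_iff] at hQ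
    rw [e, hQ]
  exact (le_normalizer_inf le_rfl (normalizer_le_normalizer_centralizer P)).trans (h.lg _
    (inf_le_right.trans ((centralizer_anti hQ).trans h.cen))
    (inf_centralizer_ne_bot hP hP le_normalizer e))

theorem wc0 {g : G} (hg : conjS g Q ≤ normalizer (Q : Set G)) : conjS g Q = Q := by
  obtain ⟨S, hS, hle⟩ := exists_isSylowIn_ge (isPGroup_sup (h.conj g).two h.two hg) (le_top (a := _))
  have h1 : Q ≤ S := le_sup_right.trans hle
  have h2 : Q ≤ conjS g⁻¹ S := conjS_le_iff.1 (le_sup_left.trans hle)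
  have hS' := hS.conj_of_mem (mem_top g⁻¹)
  obtain ⟨m, hm, e⟩ := (hS'.mono (le_normalizer.trans (h.norm_le hS'.isPGroup h2)) le_top).exists_conj
    (hS.mono (le_normalizer.trans (h.norm_le hS.isPGroup h1)) le_top)
  rw [← conjS_mul, ← mem_normalizer_iff_conjS] at e
  exact mem_normalizer_iff_conjS.1 (by
    simpa using mul_mem (inv_mem (h.norm_le hS.isPGroup h1 e)) hm)

theorem wc (hA : A ∈ cl Q) (hB : B ∈ cl Q) (e : B ≤ normalizer (A : Set G)) : B = A := by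
  obtain ⟨g, rfl⟩ := cl_trans hA hB
  exact (h.of_mem hA).wc0 e

theorem ti (hA : A ∈ cl Q) (hB : B ∈ cl Q) {x : G} (h1 : x ∈ A) (h2 : x ∈ B) (x1 : x ≠ 1) : A = B :=
  h.wc hB hA fun a ha => (h.of_mem hB).mem_norm h2 x1 ((h.of_mem hA).comm a ha x h1)

theorem ti0 (g : G) : conjS g Q = Q ∨ conjS g Q ⊓ Q = ⊥ :=
  or_iff_not_imp_left.2 fun ne => eq_bot_iff.2 fun x hx => by
    by_contra x1
    exact ne (h.ti ⟨g, rfl⟩ ⟨1, conjS_one Q⟩ hx.1 hx.2 x1)

theorem comm_nz (hA : A ∈ cl Q) (hB : B ∈ cl Q) (ne : A ≠ B) {i j : G} (hi : i ∈ nz A B)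
    (hj : j ∈ nz B A) : i * j = j * i := by
  by_contra e
  refine ne (h.ti hA hB (x := ⁅i, j⁆) ?_ (mul_mem (conj_mem_of_mem_normalizer hi.2 hj.1) (inv_mem hj.1))
    (fun e' => e (commutatorElement_eq_one_iff_mul_comm.1 e')))
  rw [commutatorElement_def, mul_assoc, mul_assoc, ← mul_assoc j]
  exact mul_mem hi.1 (conj_mem_of_mem_normalizer hj.2 (inv_mem hi.1))

theorem nz_sq (hA : A ∈ cl Q) (hB : B ∈ cl Q) (ne : A ≠ B) {x : G} (hx : x ∈ nz A B) : x * x = 1 := by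
  by_contra e
  obtain ⟨g, rfl⟩ := cl_trans hA hB
  have a := h.of_mem hA
  have := Classif.ti_abelian_dichotomy a.two ⟨⟨fun x y => Subtype.ext (a.comm _ x.2 _ y.2)⟩⟩ a.ti0
    ne.symm hx.1 hx.2 (by rwa [pow_two])
  rw [Subgroup.commutator_comm] at this
  exact ne (h.wc hA hB ((commutator_eq_bot_iff_le_centralizer.1 this).trans
    (centralizer_le_normalizer _))).symm

end LA

/-- an adjacent pair of conjugates of `Q` -/
structure PP (Q A B : Subgroup G) : Prop where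
  la : LA Q
  l : A ∈ cl Q
  r : B ∈ cl Q
  ne : A ≠ B
  ei : ∃ i ∈ nz A B, i ≠ 1
  ej : ∃ j ∈ nz B A, j ≠ 1
  sl : ∀ x ∈ A, x * x ∈ normalizer (B : Set G)
  sr : ∀ x ∈ B, x * x ∈ normalizer (A : Set G)

/-- `v ∈ C W` with `1 ≠ C_W(v) ≤ C` -/
structure Good (Q W C : Subgroup G) (v : G) : Prop where
  mem : C ∈ cl Q
  norm : W ≤ normalizer (C : Set G)
  nv : v ∈ normalizer (W : Set G)
  dec : ∃ c ∈ C, ∃ w ∈ W, v = c * w
  ex : ∃ w ∈ W, w ≠ 1 ∧ w * v = v * w
  cen : ∀ w ∈ W, w * v = v * w → w ∈ C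

theorem Good.conj {W : Subgroup G} {v g : G} (h : Good Q W C v) (hg : g ∈ normalizer (W : Set G)) :
    Good Q W (conjS g C) (g * v * g⁻¹) where
  mem := cl_conj h.mem g
  norm := by
    rw [← conjS_normalizer, ← mem_normalizer_iff_conjS.1 hg]; exact conjS_mono h.norm
  nv := mul_mem (mul_mem hg h.nv) (inv_mem hg)
  dec := by
    obtain ⟨c, hc, w, hw, rfl⟩ := h.dec
    exact ⟨_, conj_mem_conjS.2 hc, _, conj_mem_of_mem_normalizer hg hw, by group⟩
  ex := by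
    obtain ⟨w, hw, w1, e⟩ := h.ex
    refine ⟨_, conj_mem_of_mem_normalizer hg hw, by simpa using w1, ?_⟩
    calc g * w * g⁻¹ * (g * v * g⁻¹) = g * (w * v) * g⁻¹ := by group
      _ = _ := by rw [e]; group
  cen w hw e := mem_conjS.2 (h.cen _ (conj_inv_mem_of_mem_normalizer hg hw) (by
    calc g⁻¹ * w * g * v = g⁻¹ * (w * (g * v * g⁻¹)) * g := by group
      _ = _ := by rw [e]; group))

variable [Finite G]

theorem Good.eq {W : Subgroup G} {v s : G} (h : LA Q) (hW : ∀ w ∈ W, w * w = 1) (a : Good Q W C v)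
    (b : Good Q W D s) (e : s * v = v * s) : C = D := by
  by_contra ne
  obtain ⟨w, hw, w1, ew⟩ := a.ex
  obtain ⟨d, hd, w', hw', rfl⟩ := b.dec
  have hs : d * w' ∈ normalizer (C : Set G) := (h.of_mem a.mem).lg (W ⊓ centralizer {v})
    (fun x hx => a.cen x hx.1 (mem_centralizer_singleton_iff.1 hx.2))
    (fun e => w1 (mem_bot.1 (e ▸ ⟨hw, mem_centralizer_singleton_iff.2 ew⟩ : w ∈ (⊥ : Subgroup G))))
    (mem_normalizer_of_conjS_le (conjS_le_iff_forall.2 fun x hx =>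
      ⟨conj_mem_of_mem_normalizer b.nv hx.1, mem_centralizer_singleton_iff.2
        ((show Commute (d * w') v from e).mul_left (mem_centralizer_singleton_iff.1 hx.2) |>.mul_left
          (show Commute (d * w') v from e).inv_left)⟩))
  have c := h.comm_nz a.mem b.mem ne ⟨a.cen w hw ew, b.norm hw⟩
    ⟨hd, (mul_mem_cancel_right (a.norm hw')).1 hs⟩
  refine ne (h.ti a.mem b.mem (a.cen w hw ew) (b.cen w hw ?_) w1)
  rw [← mul_assoc, c, mul_assoc, comm_of_sq hW hw hw', mul_assoc]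

namespace PP

variable (p : PP Q A B)
include p

theorem symm : PP Q B A := ⟨p.la, p.r, p.l, p.ne.symm, p.ej, p.ei, p.sr, p.sl⟩

theorem comm {i j : G} (hi : i ∈ nz A B) (hj : j ∈ nz B A) : i * j = j * i :=
  p.la.comm_nz p.l p.r p.ne hi hj

theorem comm_mem {x j : G} (hx : x ∈ A) (hj : j ∈ nz B A) : ⁅x, j⁆ ∈ nz A B := by
  have h1 := conj_mem_of_mem_normalizer hj.2 (inv_mem hx)
  have h2 : ⁅x, j⁆ ∈ A := by
    rw [commutatorElement_def, mul_assoc, mul_assoc, ← mul_assoc j]; exact mul_mem hx h1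
  by_cases j1 : j = 1
  · simp [j1]
  refine ⟨h2, (p.la.of_mem p.r).mem_norm hj.1 j1 ?_⟩
  have e := sq_comm ((p.la.of_mem p.l).comm _ hx _ h1)
  rw [commutatorElement_eq_one_iff_mul_comm.2 (p.comm ⟨mul_mem hx hx, p.sl x hx⟩ hj)] at e
  have jj := p.la.nz_sq p.r p.l p.ne.symm hj
  calc ⁅x, j⁆ * j = j * j * (x * j⁻¹ * x⁻¹) := by
        rw [jj, inv_eq_of_sq jj, commutatorElement_def]; group
    _ = j * ⁅x, j⁆⁻¹ := by simp only [commutatorElement_def]; group
    _ = _ := by rw [inv_eq_of_sq e.symm]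

theorem eq_one {x j : G} (hx : x ∉ normalizer (B : Set G)) (hj : j ∈ B) (e : x * j = j * x) : j = 1 := by
  by_contra j1
  exact hx ((p.la.of_mem p.r).mem_norm hj j1 e)

theorem exists_not_mem : ∃ x ∈ A, x ∉ normalizer (B : Set G) := by
  by_contra e
  push Not at e
  exact p.ne (p.la.wc p.r p.l e)

theorem inj {x : G} (hx : x ∈ A) (hx' : x ∉ normalizer (B : Set G)) :
    Function.Injective fun j : nz B A => (⟨⁅x, j⁆, p.comm_mem hx j.2⟩ : nz A B) := fun j j' e => by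
  have e : ⁅x, (j : G)⁆ = ⁅x, (j' : G)⁆ := congrArg Subtype.val e
  refine Subtype.ext (inv_mul_eq_one.1 (p.eq_one hx' (mul_mem (inv_mem j'.2.1) j.2.1) ?_)).symm
  simp only [commutatorElement_def] at e
  calc x * ((j' : G)⁻¹ * j) = (j' : G)⁻¹ * (x * j' * x⁻¹ * (j' : G)⁻¹)⁻¹ * (x * j) := by group
    _ = _ := by rw [← e]; group

theorem exists_comm {x i : G} (hx : x ∈ A) (hx' : x ∉ normalizer (B : Set G)) (hi : i ∈ nz A B) :
    ∃ j ∈ nz B A, ⁅x, j⁆ = i := by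
  obtain ⟨y, hy, hy'⟩ := p.symm.exists_not_mem
  obtain ⟨j, e⟩ := ((p.inj hx hx').bijective_of_nat_card_le
    (Nat.card_le_card_of_injective _ (p.symm.inj hy hy'))).2 ⟨i, hi⟩
  exact ⟨j, j.2, congrArg Subtype.val e⟩

theorem mem_ww {w : G} : w ∈ ww A B ↔ ∃ i ∈ nz A B, ∃ j ∈ nz B A, w = i * j :=
  mem_sup_iff_of_left_le_normalizer fun _ hi => centralizer_le_normalizer _
    (mem_centralizer_iff.2 fun _ hj => (p.comm hi hj).symm)

theorem ww_sq (w : G) (hw : w ∈ ww A B) : w * w = 1 := by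
  obtain ⟨i, hi, j, hj, rfl⟩ := p.mem_ww.1 hw
  calc i * j * (i * j) = i * (j * i) * j := by group
    _ = i * i * (j * j) := by rw [← p.comm hi hj]; group
    _ = 1 := by rw [p.la.nz_sq p.l p.r p.ne hi, p.la.nz_sq p.r p.l p.ne.symm hj, one_mul]

theorem le_norm : A ≤ normalizer (ww A B : Set G) := fun a ha =>
  mem_normalizer_of_conjS_le (conjS_le_iff_forall.2 fun w hw => by
    obtain ⟨i, hi, j, hj, rfl⟩ := p.mem_ww.1 hw
    convert mul_mem (mem_sup_left (mul_mem hi (p.comm_mem ha hj))) (mem_sup_right hj : j ∈ ww A B)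
      using 1
    rw [← mul_assoc a, (p.la.of_mem p.l).comm a ha i hi.1, commutatorElement_def]; group)

theorem good {x w : G} (hx : x ∈ A) (hx' : x ∉ normalizer (B : Set G)) (hw : w ∈ ww A B) :
    Good Q (ww A B) A (x * w) where
  mem := p.l
  norm := sup_le (inf_le_left.trans le_normalizer) inf_le_right
  nv := mul_mem (p.le_norm hx) (le_normalizer hw)
  dec := ⟨x, hx, w, hw, rfl⟩
  ex := by
    obtain ⟨i, hi, i1⟩ := p.ei
    refine ⟨i, mem_sup_left hi, i1, ?_⟩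
    rw [← mul_assoc, (p.la.of_mem p.l).comm i hi.1 x hx, mul_assoc,
      comm_of_sq p.ww_sq (mem_sup_left hi) hw, mul_assoc]
  cen w' hw' e := by
    rw [mul_assoc, comm_of_sq p.ww_sq hw hw', ← mul_assoc, ← mul_assoc, mul_left_inj] at e
    obtain ⟨i, hi, j, hj, rfl⟩ := p.mem_ww.1 hw'
    rw [← mul_assoc, (p.la.of_mem p.l).comm x hx i hi.1, mul_assoc, mul_assoc, mul_right_inj] at e
    rw [p.eq_one hx' hj.1 e.symm, mul_one]
    exact hi.1

/-- if `A` is not elementary abelian, then the involutions of `B` normalize `A` -/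
theorem inv_mem_norm {x b : G} (hx : x ∈ A) (x2 : x * x ≠ 1) (hb : b ∈ B) (b2 : b * b = 1) :
    b ∈ normalizer (A : Set G) := by
  by_contra hb'
  have hx' : x ∉ normalizer (B : Set G) := fun e => x2 (p.la.nz_sq p.l p.r p.ne ⟨hx, e⟩)
  obtain ⟨j, hj, ej⟩ := p.exists_comm hx hx' ⟨mul_mem hx hx, p.sl x hx⟩
  have t2 : x * j * (x * j) = 1 := by
    have jj := p.la.nz_sq p.r p.l p.ne.symm hj
    rw [commutatorElement_def, mul_assoc, mul_assoc, mul_right_inj, inv_eq_of_sq jj] at ej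
    calc x * j * (x * j) = x * j * (j * (x⁻¹ * j) * j) := by rw [ej]
      _ = x * (j * j) * x⁻¹ * (j * j) := by group
      _ = 1 := by rw [jj]; group
  have gt := p.good hx hx' (mem_sup_right hj)
  have gb := p.symm.good hb hb' (one_mem _)
  rw [mul_one, ww_comm] at gb
  have hX : closure ({x * j, b} : Set G) ≤ normalizer (ww A B : Set G) :=
    (closure_le _).2 (Set.insert_subset gt.nv (Set.singleton_subset_iff.2 gb.nv))
  by_cases ho : Odd (orderOf (x * j * b))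
  · obtain ⟨s, -, e, ⟨g, hg, es⟩, -⟩ := exists_swap t2 b2 ho
    have hs : s ∈ normalizer (ww A B : Set G) :=
      es ▸ mul_mem (mul_mem (hX hg) gt.nv) (inv_mem (hX hg))
    have e1 := Good.eq p.la p.ww_sq (e ▸ gt.conj hs) gb rfl
    have : x * j ∈ A := conj_mem_conjS.1 (e1 ▸ e ▸ hb : s * (x * j) * s⁻¹ ∈ conjS s A)
    rw [p.eq_one hx' hj.1 ((p.la.of_mem p.l).comm x hx j ((mul_mem_cancel_left hx).1 this)),
      mul_one] at t2
    exact x2 t2
  obtain ⟨u, u1, ut, ub, ⟨g, hg, e1⟩, ⟨g', hg', e2⟩⟩ := exists_central t2 b2 ho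
  have k : ∀ {C t g}, Good Q (ww A B) C t → u * t = t * u → g ∈ closure ({x * j, b} : Set G) →
      (u * t = g * (x * j) * g⁻¹ ∨ u * t = g * b * g⁻¹) → ∃ c ∈ C, ∃ w ∈ ww A B, u = c * w := by
    intro C t g gc e hg e'
    obtain ⟨D, gd⟩ : ∃ D, Good Q (ww A B) D (u * t) :=
      e'.elim (fun e' => ⟨_, e' ▸ gt.conj (hX hg)⟩) fun e' => ⟨_, e' ▸ gb.conj (hX hg)⟩
    obtain rfl := Good.eq p.la p.ww_sq gd gc (by rw [← mul_assoc, ← e])
    obtain ⟨c, hc, w, hw, e1⟩ := gd.dec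
    obtain ⟨c', hc', w', hw', rfl⟩ := gc.dec
    refine ⟨c * c'⁻¹, mul_mem hc (inv_mem hc'), c' * (w * w'⁻¹) * c'⁻¹, conj_mem_of_mem_normalizer
      ((mul_mem_cancel_right (le_normalizer hw')).1 gc.nv) (mul_mem hw (inv_mem hw')), ?_⟩
    rw [eq_mul_inv_of_mul_eq e1]; group
  obtain ⟨a, ha, w, hw, ea⟩ := k gt ut hg e1
  obtain ⟨c, hc, w', hw', ec⟩ := k gb ub hg' e2
  obtain ⟨j', hj', j1⟩ := p.ej
  have hu : u ∈ ww A B := by
    refine ea ▸ mul_mem (mem_sup_left ⟨ha, (p.la.of_mem p.r).mem_norm hj'.1 j1 ?_⟩) hw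
    have e3 : u * j' = j' * u := by
      rw [ec, mul_assoc, comm_of_sq p.ww_sq hw' (mem_sup_right hj'), ← mul_assoc,
        (p.la.of_mem p.r).comm c hc j' hj'.1, mul_assoc]
    rw [ea, mul_assoc, comm_of_sq p.ww_sq hw (mem_sup_right hj'), ← mul_assoc, ← mul_assoc] at e3
    exact mul_right_cancel e3
  exact p.ne (p.la.ti p.l p.r (gt.cen u hu ut) (gb.cen u hu ub) u1)

theorem sq {x : G} (hx : x ∈ A) : x * x = 1 := by
  by_contra x2
  have a := p.la.of_mem p.l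
  obtain ⟨g, eg⟩ := cl_trans p.l p.r
  let O : Subgroup G :=
    { carrier := {a | a ∈ A ∧ a * a = 1}
      one_mem' := ⟨one_mem _, mul_one 1⟩
      mul_mem' := fun {u v} hu hv => ⟨mul_mem hu.1 hv.1, by
        calc u * v * (u * v) = u * (v * u) * v := by group
          _ = u * u * (v * v) := by rw [a.comm v hv.1 u hu.1]; group
          _ = 1 := by rw [hu.2, hv.2, one_mul]⟩
      inv_mem' := fun {u} hu => ⟨inv_mem hu.1, by rw [← mul_inv_rev, hu.2, inv_one]⟩ }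
  have hK : pp A O ≤ A := a.o2 _ (isPGroup_iff_forall_mem.2 fun k hk => by
      obtain ⟨n, hn⟩ := isPGroup_iff_forall_mem.1 a.two (k * k) (a.cen (mem_centralizer_iff.2
        fun v hv => by
          have e := pp_act hk hk hv
          rw [(hk.2.2 v hv).2, one_mul] at e
          calc v * (k * k) = k * k * v * (k * k)⁻¹ * (k * k) := by rw [e]
            _ = _ := by group))
      exact ⟨n + 1, by rw [pow_succ', pow_mul, pow_two, hn]⟩)
    (fun k hk => hk.2.1) fun m hm => norm_pp hm (mem_normalizer_of_conjS_le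
      (conjS_le_iff_forall.2 fun u hu => ⟨conj_mem_of_mem_normalizer hm hu.1, by
        rw [conj_mul, hu.2, mul_one, mul_inv_cancel]⟩))
  obtain ⟨j, hj, j1⟩ := p.ej
  refine p.ne (p.la.ti p.l p.r (hK ⟨mem_centralizer_iff.2 fun u hu => p.comm ⟨hu.1,
    p.symm.inv_mem_norm (eg ▸ conj_mem_conjS.2 hx) (by rw [conj_mul]; simpa using x2) hu.1 hu.2⟩ hj,
    hj.2, fun v hv => ?_⟩) hj.1 j1)
  rw [← commutatorElement_inv]
  exact inv_mem ⟨(p.comm_mem hv hj).1, p.la.nz_sq p.l p.r p.ne (p.comm_mem hv hj)⟩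

end PP

theorem LA.sq_mem (h : LA Q) (hA : A ∈ cl Q) (hB : B ∈ cl Q) (ne : A ≠ B) {R : Subgroup G}
    (h1 : A ≤ normalizer (R : Set G)) (h2 : R ≤ normalizer (A : Set G))
    (h3 : R ≤ normalizer (B : Set G)) {j x : G} (hj : j ∈ B) (hR : j ∈ R) (j1 : j ≠ 1) (hx : x ∈ A) :
    x * x ∈ normalizer (B : Set G) := by
  have hx' := conj_mem_of_mem_normalizer (h2 hR) (inv_mem hx)
  refine (h.of_mem hB).mem_norm hj j1 (commutatorElement_eq_one_iff_mul_comm.1 ?_)
  rw [sq_comm ((h.of_mem hA).comm _ hx _ hx')]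
  refine h.nz_sq hA hB ne ⟨?_, h3 (mul_mem (conj_mem_of_mem_normalizer (h1 hx) hR) (inv_mem hR))⟩
  rw [commutatorElement_def, mul_assoc, mul_assoc, ← mul_assoc j]
  exact mul_mem hx hx'

/-- a 2-local subgroup over a Sylow subgroup, not contained in `N(Q)`, gives an adjacent pair -/
theorem LA.exists_pp (h : LA Q) {S R : Subgroup G} (hS : IsSylowIn 2 S ⊤) (hQ : Q ≤ S)
    (hR : IsPGroup 2 R) (R1 : R ≠ ⊥) (h1 : S ≤ normalizer (R : Set G))
    (h2 : ¬ normalizer (R : Set G) ≤ normalizer (Q : Set G)) : ∃ B, PP Q Q B := by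
  obtain ⟨l, hl, hl'⟩ := SetLike.not_le_iff_exists.1 h2
  obtain ⟨⟨z, hz⟩, z1⟩ := ne_bot_iff_exists_ne_one.1 (inf_centralizer_ne_bot hR hS.isPGroup h1 R1)
  have z1 : z ≠ 1 := fun e => z1 (Subtype.ext e)
  have zQ := h.cen (centralizer_anti hQ hz.2)
  have a1 : R ≤ normalizer (Q : Set G) := (hS.le_of_le_normalizer hR le_top h1).trans
    (le_normalizer.trans (h.norm_le hS.isPGroup hQ))
  have a2 : R ≤ normalizer (conjS l Q : Set G) := by
    rw [← conjS_normalizer, ← mem_normalizer_iff_conjS.1 hl]; exact conjS_mono a1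
  have a3 : conjS l Q ≤ normalizer (R : Set G) := conjS_le_of_le_of_mem (hQ.trans h1) hl
  have ne : Q ≠ conjS l Q := fun e => hl' (mem_normalizer_iff_conjS.2 e.symm)
  have m : Q ∈ cl Q := ⟨1, conjS_one Q⟩
  have hj := conj_mem_of_mem_normalizer hl hz.1
  exact ⟨_, h, m, ⟨l, rfl⟩, ne, ⟨z, ⟨zQ, a2 hz.1⟩, z1⟩,
    ⟨_, ⟨conj_mem_conjS.2 zQ, a1 hj⟩, by simpa using z1⟩,
    fun x hx => h.sq_mem m ⟨l, rfl⟩ ne (hQ.trans h1) a1 a2 (conj_mem_conjS.2 zQ) hj
      (by simpa using z1) hx,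
    fun x hx => h.sq_mem ⟨l, rfl⟩ m ne.symm a3 a2 a1 zQ hz.1 z1 hx⟩

end CfsgLib.LAb
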